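import Cfsg.Agent.Lib.H38.Goldschmidt
import Cfsg.Agent.Lib.H3.SylowInf
import Cfsg.Prelude.Def_HallClasses

/-!
# D_π-groups that are π-homogeneous: supplements and control of `p`-fusion by the Hall subgroup
-/

set_option autoImplicit false

namespace H8.DP

open Cfsg H38.Basic H38.Alperin H38.Goldschmidt

universe u

section supp

variable {N : Type u} [Group N] [Finite N]

theorem index_dvd_card_of_sup_eq_top (X K : Subgroup N) [K.Normal] (h : X ⊔ K = ⊤) :
    X.index ∣ Nat.card K := by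
  have h1 : K.relIndex X = K.index := by
    rw [← Subgroup.relIndex_sup_right X K, h, Subgroup.relIndex_top_right]
  have h2 : K.relIndex X * Nat.card (K ⊓ X : Subgroup N) = Nat.card X := by
    rw [← Subgroup.inf_relIndex_right, mul_comm]
    have := Subgroup.relIndex_mul_relIndex (⊥ : Subgroup N) (K ⊓ X) X bot_le inf_le_right
    rw [Subgroup.relIndex_bot_left, Subgroup.relIndex_bot_left] at this
    exact this
  have h3 : Nat.card X * X.index = Nat.card N := X.card_mul_index
  have h4 : Nat.card K * K.index = Nat.card N := K.card_mul_index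
  have h5 : K.index * (X.index * Nat.card (K ⊓ X : Subgroup N)) = K.index * Nat.card K := by
    calc K.index * (X.index * Nat.card (K ⊓ X : Subgroup N))
        = (K.index * Nat.card (K ⊓ X : Subgroup N)) * X.index := by ring
      _ = Nat.card N := by rw [← h1, h2, h3]
      _ = K.index * Nat.card K := by rw [← h4, mul_comm]
  have h6 : 0 < K.index := Nat.pos_of_ne_zero K.index_ne_zero_of_finite
  exact Dvd.intro _ (Nat.eq_of_mul_eq_mul_left h6 h5)

/-- a normal subgroup with `π`-quotient has a `π`-supplement -/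
theorem exists_pi_supplement (π : Set ℕ) (K : Subgroup N) [K.Normal]
    (hK : ∀ p : ℕ, p.Prime → p ∣ K.index → p ∈ π) :
    ∃ X : Subgroup N, IsPiSubgroup π X ∧ X ⊔ K = ⊤ := by
  classical
  obtain ⟨X, hX⟩ : ∃ X : Subgroup N, Minimal (fun X : Subgroup N => X ⊔ K = ⊤) X := by
    obtain ⟨X, -, hX⟩ := exists_minimal_le_of_wellFoundedLT (fun X : Subgroup N => X ⊔ K = ⊤) ⊤
      (top_sup_eq K)
    exact ⟨X, hX⟩
  refine ⟨X, ?_, hX.1⟩
  intro q hq hqX
  by_contra hqπ
  have : Fact q.Prime := ⟨hq⟩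
  -- any subgroup of `X` which supplements `K ⊓ X` in `X` is `X`
  have hmin : ∀ Y : Subgroup X, Y ⊔ K.subgroupOf X = ⊤ → Y = ⊤ := by
    intro Y hY
    have h1 : Y.map X.subtype ⊔ K = ⊤ := by
      rw [eq_top_iff, ← hX.1]
      refine sup_le ?_ le_sup_right
      have h2 : (⊤ : Subgroup X).map X.subtype ≤ Y.map X.subtype ⊔ K := by
        rw [← hY, Subgroup.map_sup]
        refine sup_le_sup_left ?_ _
        rw [Subgroup.subgroupOf_map_subtype]
        exact inf_le_left
      rwa [← MonoidHom.range_eq_map, Subgroup.range_subtype] at h2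
    have h2 : X ≤ Y.map X.subtype := hX.2 h1 (Subgroup.map_subtype_le Y)
    rw [eq_top_iff]
    intro x _
    obtain ⟨y, hy, hyx⟩ := h2 x.2
    rwa [Subtype.ext hyx] at hy
  have hL : ¬ q ∣ (K.subgroupOf X).index := by
    intro h
    exact hqπ (hK q hq (h.trans (Subgroup.relIndex_dvd_index_of_normal K X)))
  obtain ⟨Q⟩ : Nonempty (Sylow q (K.subgroupOf X)) := inferInstance
  have h1 := hmin _ Q.normalizer_sup_eq_top
  set Q' : Subgroup X := (Q : Subgroup (K.subgroupOf X)).map (K.subgroupOf X).subtype with hQ'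
  have hQn : Q'.Normal := Subgroup.normalizer_eq_top_iff.1 h1
  have hQi : ¬ q ∣ Q'.index := by
    intro h
    have h2 : Q'.relIndex (K.subgroupOf X) * (K.subgroupOf X).index = Q'.index :=
      Subgroup.relIndex_mul_index (Subgroup.map_subtype_le _)
    rw [← h2] at h
    rcases (Nat.Prime.dvd_mul hq).1 h with h | h
    · apply Q.not_dvd_index
      have h3 : Q'.subgroupOf (K.subgroupOf X) = (Q : Subgroup (K.subgroupOf X)) :=
        Subgroup.comap_map_eq_self_of_injective (Subgroup.subtype_injective _) _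
      rw [Subgroup.relIndex, h3] at h
      exact h
    · exact hL h
  have hQp : IsPGroup q Q' := Q.2.map _
  obtain ⟨n, hn⟩ := IsPGroup.iff_card.1 hQp
  have hcop : Nat.Coprime (Nat.card Q') Q'.index := by
    rw [hn]
    exact Nat.Coprime.pow_left _ ((Nat.Prime.coprime_iff_not_dvd hq).2 hQi)
  obtain ⟨Z, hZ⟩ := Subgroup.exists_left_complement'_of_coprime hcop
  have h2 : Z = ⊤ := by
    apply hmin
    rw [eq_top_iff, ← hZ.sup_eq_top]
    exact sup_le_sup_left (Subgroup.map_subtype_le _) _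
  rw [h2] at hZ
  have h3 : Q' = ⊥ := by
    have := hZ.disjoint
    rwa [top_disjoint] at this
  rw [h3, Subgroup.index_bot] at hQi
  exact hQi hqX

end supp

section cen

variable {G : Type u} [Group G] [Finite G] {p : ℕ} [Fact p.Prime]

/-- a subgroup with a central Sylow `p`-subgroup: the `p'`-elements form a complement -/
theorem central_sylow {T C : Subgroup G} (hT : IsSyl p T C)
    (hC : C ≤ Subgroup.centralizer (T : Set G)) :
    ∃ K : Subgroup G, (∀ x, x ∈ K ↔ x ∈ C ∧ ¬ p ∣ orderOf x) ∧ K ⊔ T = C ∧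
      K.relIndex C = Nat.card T ∧ ¬ p ∣ Nat.card K := by
  have h1 : ((hT.toSylow : Sylow p C) : Subgroup C) ≤ Subgroup.center C := by
    intro x hx
    rw [Subgroup.mem_center_iff]
    intro y
    have hx' : (x : G) ∈ T := hx
    have := Subgroup.mem_centralizer_iff.1 (hC y.2) x hx'
    exact Subtype.ext this.symm
  obtain ⟨H, hHn, hH⟩ := H3.SylowInf.exists_complement_of_le_center hT.toSylow h1
  have hHi : H.index = Nat.card (hT.toSylow : Subgroup C) := hH.symm.index_eq_card
  have hHc : Nat.card H = (hT.toSylow : Subgroup C).index := hH.index_eq_card.symm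
  have hpH : ¬ p ∣ Nat.card H := by
    rw [hHc]; exact hT.toSylow.not_dvd_index
  obtain ⟨n, hn⟩ := IsPGroup.iff_card.1 hT.toSylow.2
  refine ⟨H.map C.subtype, ?_, ?_, ?_, ?_⟩
  · intro x
    constructor
    · rintro ⟨y, hy, rfl⟩
      refine ⟨y.2, fun h => hpH ?_⟩
      have h2 : orderOf (C.subtype y) = orderOf (⟨y, hy⟩ : H) := by
        rw [Subgroup.coe_subtype, Subgroup.orderOf_coe, ← Subgroup.orderOf_coe (⟨y, hy⟩ : H)]
      rw [h2] at h
      exact h.trans (orderOf_dvd_natCard _)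
    · rintro ⟨hx, hp⟩
      refine ⟨⟨x, hx⟩, ?_, rfl⟩
      have := hHn
      change (⟨x, hx⟩ : C) ∈ H
      rw [← QuotientGroup.eq_one_iff, ← orderOf_eq_one_iff]
      have h2 : orderOf ((⟨x, hx⟩ : C) : C ⧸ H) ∣ orderOf x := by
        rw [← Subgroup.orderOf_mk x hx]
        exact orderOf_map_dvd (QuotientGroup.mk' H) _
      have h3 : orderOf ((⟨x, hx⟩ : C) : C ⧸ H) ∣ p ^ n := by
        rw [← hn]
        have h4 := orderOf_dvd_natCard ((⟨x, hx⟩ : C) : C ⧸ H)
        rwa [← Subgroup.index_eq_card, hHi] at h4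
      have h4 : Nat.Coprime (orderOf x) (p ^ n) :=
        Nat.Coprime.pow_right _ ((Nat.Prime.coprime_iff_not_dvd Fact.out).2 hp).symm
      exact Nat.eq_one_of_dvd_coprimes h4 h2 h3
  · have h2 := congrArg (Subgroup.map C.subtype) hH.sup_eq_top
    rw [Subgroup.map_sup, ← MonoidHom.range_eq_map, Subgroup.range_subtype, hT.map_toSylow] at h2
    exact h2
  · have h3 : (H.map C.subtype).subgroupOf C = H :=
      Subgroup.comap_map_eq_self_of_injective (Subgroup.subtype_injective _) _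
    rw [Subgroup.relIndex, h3, hHi]
    have h4 := hT.map_toSylow
    conv_rhs => rw [← h4]
    rw [Subgroup.card_map_of_injective C.subtype_injective]
  · rwa [Subgroup.card_map_of_injective C.subtype_injective]

/-- the element form of `π`-homogeneity -/
def PHom (π : Set ℕ) (G : Type u) [Group G] : Prop :=
  ∀ U : Subgroup G, IsPiSubgroup π U → ∀ x ∈ Subgroup.normalizer (U : Set G),
    (∀ q : ℕ, q.Prime → q ∣ orderOf x → q ∉ π) → x ∈ Subgroup.centralizer (U : Set G)

omit [Fact p.Prime] in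
theorem relIndex_of_phom {π : Set ℕ} (hom : PHom π G) {U : Subgroup G} (hU : IsPiSubgroup π U)
    {q : ℕ} (hq : q.Prime)
    (hd : q ∣ (Subgroup.centralizer (U : Set G)).relIndex (Subgroup.normalizer (U : Set G))) :
    q ∈ π := by
  by_contra hqπ
  have : Fact q.Prime := ⟨hq⟩
  set N := Subgroup.normalizer (U : Set G) with hN
  set C := Subgroup.centralizer (U : Set G) with hC
  have hCn : (C.subgroupOf N).Normal :=
    Subgroup.normal_subgroupOf_of_le_normalizer (le_normalizer_centralizer U)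
  rw [Subgroup.relIndex, Subgroup.index_eq_card] at hd
  obtain ⟨x, hx⟩ := exists_prime_orderOf_dvd_card' (G := N ⧸ C.subgroupOf N) q hd
  obtain ⟨y, rfl⟩ := QuotientGroup.mk'_surjective _ x
  have hy0 : orderOf y ≠ 0 := (orderOf_pos y).ne'
  obtain ⟨a, m, hm, hym⟩ := Nat.exists_eq_pow_mul_and_not_dvd hy0 q hq.ne_one
  have h1 : orderOf (y ^ m) = q ^ a := by
    have hm0 : m ≠ 0 := by rintro rfl; exact hm (dvd_zero _)
    rw [orderOf_pow_of_dvd hm0 (by rw [hym]; exact dvd_mul_left _ _), hym,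
      Nat.mul_div_cancel _ (Nat.pos_of_ne_zero hm0)]
  have h2 : ((y ^ m : N) : G) ∈ C := by
    refine hom U hU _ (y ^ m).2 ?_
    intro r hr hrd
    rw [Subgroup.orderOf_coe, h1] at hrd
    have := (Nat.prime_dvd_prime_iff_eq hr hq).1 (hr.dvd_of_dvd_pow hrd)
    rwa [this]
  have h3 : (QuotientGroup.mk' (C.subgroupOf N) y) ^ m = 1 := by
    rw [← map_pow, QuotientGroup.mk'_apply, QuotientGroup.eq_one_iff]
    exact h2
  have h4 := orderOf_dvd_of_pow_eq_one h3
  rw [hx] at h4
  exact hm h4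

theorem exists_pi_ge {π : Set ℕ} (hpπ : p ∈ π) (hom : PHom π G) {U T : Subgroup G}
    (hU : IsPiSubgroup π U) (hT : IsSyl p T (Subgroup.normalizer (U : Set G)))
    (hcen : T ⊓ Subgroup.centralizer (U : Set G) ≤ U) :
    ∃ X : Subgroup G, X ≤ Subgroup.normalizer (U : Set G) ∧ IsPiSubgroup π X ∧ T ≤ X ∧
      ∀ n ∈ Subgroup.normalizer (U : Set G), ∃ c ∈ Subgroup.centralizer (U : Set G), ∃ x ∈ X,
        n = c * x := by
  set N := Subgroup.normalizer (U : Set G) with hN
  set C := Subgroup.centralizer (U : Set G) with hC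
  have hCN : C ≤ N := Subgroup.centralizer_le_normalizer (U : Set G)
  have hNC : N ≤ Subgroup.normalizer (C : Set G) := le_normalizer_centralizer U
  have hTC : IsSyl p (T ⊓ C) C := hT.inf_normal hCN hNC
  have hCT : C ≤ Subgroup.centralizer ((T ⊓ C : Subgroup G) : Set G) :=
    Subgroup.centralizer_le hcen
  obtain ⟨K, hK, hKT, hKi, hKp⟩ := central_sylow hTC hCT
  have hKC : K ≤ C := fun x hx => ((hK x).1 hx).1
  have hKN : K ≤ N := hKC.trans hCN
  have hNK : N ≤ Subgroup.normalizer (K : Set G) := by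
    intro n hn
    rw [Subgroup.mem_normalizer_iff]
    intro x
    rw [hK, hK]
    have h1 : orderOf (n * x * n⁻¹) = orderOf x := by
      rw [← MulAut.conj_apply]
      exact orderOf_injective (MulAut.conj n).toMonoidHom (MulAut.conj n).injective x
    rw [h1]
    exact and_congr_left (fun _ => Subgroup.mem_normalizer_iff.1 (hNC hn) x)
  have hKn : (K.subgroupOf N).Normal := Subgroup.normal_subgroupOf_of_le_normalizer hNK
  have hKidx : ∀ q : ℕ, q.Prime → q ∣ (K.subgroupOf N).index → q ∈ π := by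
    intro q hq hd
    have h1 : (K.subgroupOf N).index = K.relIndex C * C.relIndex N :=
      (Subgroup.relIndex_mul_relIndex K C N hKC hCN).symm
    rw [h1] at hd
    rcases (Nat.Prime.dvd_mul hq).1 hd with h | h
    · rw [hKi] at h
      obtain ⟨n, hn⟩ := IsPGroup.iff_card.1 hTC.2.1
      rw [hn] at h
      have := (Nat.prime_dvd_prime_iff_eq hq Fact.out).1 (hq.dvd_of_dvd_pow h)
      rwa [this]
    · exact relIndex_of_phom hom hU hq h
  obtain ⟨X', hX'π, hX'⟩ := exists_pi_supplement π (K.subgroupOf N) hKidx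
  set X₁ := X'.map N.subtype with hX₁
  have hX₁N : X₁ ≤ N := Subgroup.map_subtype_le _
  have hX₁c : Nat.card X₁ = Nat.card X' := Subgroup.card_map_of_injective N.subtype_injective
  have hX₁i : ¬ p ∣ X₁.relIndex N := by
    have h1 : X₁.subgroupOf N = X' :=
      Subgroup.comap_map_eq_self_of_injective (Subgroup.subtype_injective _) _
    rw [Subgroup.relIndex, h1]
    intro h
    apply hKp
    have h2 := h.trans (index_dvd_card_of_sup_eq_top X' (K.subgroupOf N) hX')
    rwa [Nat.card_congr (Subgroup.subgroupOfEquivOfLe hKN).toEquiv] at h2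
  have hX₁K : X₁ ⊔ K = N := by
    have h2 := congrArg (Subgroup.map N.subtype) hX'
    rw [Subgroup.map_sup, ← MonoidHom.range_eq_map, Subgroup.range_subtype,
      Subgroup.map_subgroupOf_eq_of_le hKN] at h2
    exact h2
  obtain ⟨T₁, hT₁⟩ := exists_isSyl (p := p) X₁
  have hT₁N : IsSyl p T₁ N := by
    refine ⟨hT₁.1.trans hX₁N, hT₁.2.1, ?_⟩
    rw [← Subgroup.relIndex_mul_relIndex T₁ X₁ N hT₁.1 hX₁N]
    intro h
    rcases (Nat.Prime.dvd_mul Fact.out).1 h with h | h
    · exact hT₁.2.2 h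
    · exact hX₁i h
  obtain ⟨n, hn, hnT⟩ := hT₁N.exists_conj_eq hT
  refine ⟨X₁.map (MulAut.conj n).toMonoidHom, ?_, ?_, ?_, ?_⟩
  · rw [← conj_eq_of_mem hn]
    exact conj_mono hX₁N n
  · intro q hq hd
    rw [card_conj, hX₁c] at hd
    exact hX'π q hq hd
  · rw [← hnT]
    exact conj_mono hT₁.1 n
  · intro m hm
    have h1 : n⁻¹ * m * n ∈ X₁ ⊔ K := by
      rw [hX₁K]
      exact mul_mem (mul_mem (inv_mem hn) hm) hn
    rw [mem_sup_iff_of_le_normalizer (hX₁N.trans hNK)] at h1
    obtain ⟨k, hk, x, hx, he⟩ := h1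
    refine ⟨n * k * n⁻¹, hKC ((Subgroup.mem_normalizer_iff.1 (hNK hn) k).1 hk), n * x * n⁻¹,
      conj_mem_conj.2 hx, ?_⟩
    have h2 : m = n * (n⁻¹ * m * n) * n⁻¹ := by group
    rw [h2, he]; group

end cen

section fus

variable {G : Type u} [Group G] [Finite G] {p : ℕ} [Fact p.Prime]

omit [Finite G] in
theorem isFusionRel (H : Subgroup G) :
    IsFusionRel (fun (A : Set G) (x : G) => ∃ h ∈ H, ∀ a ∈ A, h * a * h⁻¹ = x * a * x⁻¹) where
  trans := by
    rintro A g h ⟨h₁, hh₁, H1⟩ ⟨h₂, hh₂, H2⟩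
    refine ⟨h₂ * h₁, mul_mem hh₂ hh₁, ?_⟩
    intro a ha
    have := H2 (g * a * g⁻¹) (mem_cj ha)
    calc h₂ * h₁ * a * (h₂ * h₁)⁻¹ = h₂ * (h₁ * a * h₁⁻¹) * h₂⁻¹ := by group
      _ = h₂ * (g * a * g⁻¹) * h₂⁻¹ := by rw [H1 a ha]
      _ = h * (g * a * g⁻¹) * h⁻¹ := this
      _ = h * g * a * (h * g)⁻¹ := by group
  symm := by
    rintro A g ⟨h₁, hh₁, H1⟩
    refine ⟨h₁⁻¹, inv_mem hh₁, ?_⟩
    rintro _ ⟨a, ha, rfl⟩
    change h₁⁻¹ * (g * a * g⁻¹) * h₁⁻¹⁻¹ = g⁻¹ * (g * a * g⁻¹) * g⁻¹⁻¹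
    rw [← H1 a ha]
    have : g⁻¹ * (h₁ * a * h₁⁻¹) * g⁻¹⁻¹ = a := by rw [H1 a ha]; group
    rw [this]; group
  mono := by
    rintro A B g hAB ⟨h₁, hh₁, H1⟩
    exact ⟨h₁, hh₁, fun a ha => H1 a (hAB ha)⟩

omit [Finite G] in
/-- the last step of the fusion argument -/
theorem fus_step {H U X : Subgroup G} {y : G} (hy : y ∈ Subgroup.normalizer (U : Set G))
    (hX : X.map (MulAut.conj y).toMonoidHom ≤ H)
    (hN : ∀ n ∈ Subgroup.normalizer (U : Set G), ∃ c ∈ Subgroup.centralizer (U : Set G), ∃ x ∈ X,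
        n = c * x) :
    ∀ n ∈ Subgroup.normalizer (U : Set G), ∃ h ∈ H, ∀ a ∈ U, h * a * h⁻¹ = n * a * n⁻¹ := by
  intro n hn
  obtain ⟨c, hc, x, hx, he⟩ := hN (y⁻¹ * n * y) (mul_mem (mul_mem (inv_mem hy) hn) hy)
  have h1 : n = (y * c * y⁻¹) * (y * x * y⁻¹) := by
    calc n = y * (y⁻¹ * n * y) * y⁻¹ := by group
      _ = _ := by rw [he]; group
  refine ⟨y * x * y⁻¹, hX (conj_mem_conj.2 hx), ?_⟩
  intro a ha
  set z := y * x * y⁻¹ with hz
  have hcN : y * c * y⁻¹ ∈ Subgroup.centralizer (U : Set G) :=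
    (Subgroup.mem_normalizer_iff.1 (le_normalizer_centralizer U hy) c).1 hc
  have hzN : z ∈ Subgroup.normalizer (U : Set G) := by
    have h2 : z = (y * c * y⁻¹)⁻¹ * n := by rw [h1]; group
    rw [h2]
    exact mul_mem (inv_mem (Subgroup.centralizer_le_normalizer _ hcN)) hn
  have h3 : z * a * z⁻¹ ∈ U := (Subgroup.mem_normalizer_iff.1 hzN a).1 ha
  have h4 := Subgroup.mem_centralizer_iff.1 hcN _ h3
  calc z * a * z⁻¹ = (z * a * z⁻¹) * (y * c * y⁻¹) * (y * c * y⁻¹)⁻¹ := by group
    _ = (y * c * y⁻¹) * (z * a * z⁻¹) * (y * c * y⁻¹)⁻¹ := by rw [h4]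
    _ = n * a * n⁻¹ := by rw [h1]; group

/-- **control of `p`-fusion** -/
theorem fusion {π : Set ℕ} (hpπ : p ∈ π) (hom : PHom π G) {H : Subgroup G}
    (hH : ∀ K : Subgroup G, IsPiSubgroup π K → ∃ g : G, K.map (MulAut.conj g).toMonoidHom ≤ H)
    (S : Sylow p G) (hSH : (S : Subgroup G) ≤ H) (Q : Subgroup G) (hQ : Q ≤ (S : Subgroup G))
    (x : G) (hx : Q.map (MulAut.conj x).toMonoidHom ≤ (S : Subgroup G)) :
    ∃ h ∈ H, ∀ a ∈ Q, h * a * h⁻¹ = x * a * x⁻¹ := by
  have hpi : ∀ U : Subgroup G, U ≤ (S : Subgroup G) → IsPiSubgroup π U := by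
    intro U hU q hq hd
    have h1 : IsPGroup p U := S.2.to_le hU
    obtain ⟨n, hn⟩ := IsPGroup.iff_card.1 h1
    rw [hn] at hd
    have := (Nat.prime_dvd_prime_iff_eq hq Fact.out).1 (hq.dvd_of_dvd_pow hd)
    rwa [this]
  have hSylH : IsSyl p (S : Subgroup G) H := (isSyl_sylow S).of_le hSH le_top
  -- a `p`-subgroup of `G` moved into `H` can be moved into `S` by `H`
  have hmove : ∀ (T : Subgroup G) (g : G), IsPGroup p T → T.map (MulAut.conj g).toMonoidHom ≤ H →
      ∃ h ∈ H, T.map (MulAut.conj (h * g)).toMonoidHom ≤ (S : Subgroup G) := by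
    intro T g hT hg
    obtain ⟨h, hh, hle⟩ := hSylH.exists_conj_le (isPGroup_conj hT g) hg
    rw [conj_conj] at hle
    exact ⟨h, hh, hle⟩
  have hconjH : ∀ (X : Subgroup G) (g h : G), h ∈ H → X.map (MulAut.conj g).toMonoidHom ≤ H →
      X.map (MulAut.conj (h * g)).toMonoidHom ≤ H := by
    intro X g h hh hX
    rw [← conj_conj, ← conj_eq_of_mem hh]
    exact conj_mono hX h
  refine alperin_ih S (isFusionRel H) ?_ ?_ Q hQ x hx
  · -- the Sylow subgroup itself
    have hT : IsSyl p (S : Subgroup G) (Subgroup.normalizer ((S : Subgroup G) : Set G)) :=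
      (isSyl_sylow S).of_le Subgroup.le_normalizer le_top
    obtain ⟨X, hXN, hXπ, hSX, hX⟩ := exists_pi_ge hpπ hom (hpi _ le_rfl) hT inf_le_left
    obtain ⟨g, hg⟩ := hH X hXπ
    obtain ⟨h, hh, hle⟩ := hmove S g S.2 ((conj_mono hSX g).trans hg)
    have hy : h * g ∈ Subgroup.normalizer ((S : Subgroup G) : Set G) := by
      rw [mem_normalizer_iff']
      exact Subgroup.eq_of_le_of_card_ge hle (by rw [card_conj])
    exact fus_step hy (hconjH X g h hh hg) hX
  · intro U hUS hsyl hbig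
    by_cases hc : (S : Subgroup G) ⊓ Subgroup.centralizer (U : Set G) ≤ U
    · -- centric
      have hc' : (S : Subgroup G) ⊓ Subgroup.normalizer (U : Set G) ⊓
          Subgroup.centralizer (U : Set G) ≤ U :=
        (inf_le_inf_right _ inf_le_left).trans hc
      obtain ⟨X, hXN, hXπ, hTX, hX⟩ := exists_pi_ge hpπ hom (hpi _ hUS.le) hsyl hc'
      obtain ⟨g, hg⟩ := hH X hXπ
      set T := (S : Subgroup G) ⊓ Subgroup.normalizer (U : Set G) with hTdef
      have hTp : IsPGroup p T := S.2.to_le inf_le_left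
      obtain ⟨h, hh, hle⟩ := hmove T g hTp ((conj_mono hTX g).trans hg)
      have hlt : U < T := lt_inf_normalizer S.2 hUS
      have hcard : Nat.card U < Nat.card T := by
        by_contra hle'
        exact hlt.ne (Subgroup.eq_of_le_of_card_ge hlt.le (not_lt.1 hle'))
      obtain ⟨h₂, hh₂, H2⟩ := hbig T inf_le_left hcard (h * g) hle
      -- `y` centralizes `T ≥ U`
      have hy : h₂⁻¹ * (h * g) ∈ Subgroup.normalizer (U : Set G) := by
        apply Subgroup.centralizer_le_normalizer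
        rw [Subgroup.mem_centralizer_iff]
        intro a ha
        have h3 := H2 a (hlt.le ha)
        have h4 : h₂⁻¹ * (h * g) * a * (h₂⁻¹ * (h * g))⁻¹ = a := by
          calc h₂⁻¹ * (h * g) * a * (h₂⁻¹ * (h * g))⁻¹
              = h₂⁻¹ * ((h * g) * a * (h * g)⁻¹) * h₂ := by group
            _ = a := by rw [← h3]; group
        calc a * (h₂⁻¹ * (h * g)) = (h₂⁻¹ * (h * g) * a * (h₂⁻¹ * (h * g))⁻¹) * (h₂⁻¹ * (h * g)) := by
              rw [h4]
          _ = h₂⁻¹ * (h * g) * a := by group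
      refine fus_step hy ?_ hX
      exact hconjH X _ _ (inv_mem hh₂) (hconjH X g h hh hg)
    · -- not centric
      set C := Subgroup.centralizer (U : Set G) with hC
      have hUN : U ≤ Subgroup.normalizer (C : Set G) :=
        Subgroup.le_normalizer.trans (le_normalizer_centralizer U)
      have hCN : C ≤ Subgroup.normalizer (U : Set G) :=
        Subgroup.centralizer_le_normalizer (U : Set G)
      have hUCN : U ⊔ C ≤ Subgroup.normalizer (U : Set G) := sup_le Subgroup.le_normalizer hCN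
      have hUCn : ∀ n ∈ Subgroup.normalizer (U : Set G),
          (U ⊔ C).map (MulAut.conj n).toMonoidHom = U ⊔ C := by
        intro n hn
        rw [conj_sup, mem_normalizer_iff'.1 hn,
          mem_normalizer_iff'.1 (le_normalizer_centralizer U hn)]
      refine step_of_normal S (isFusionRel H) ?_ (M := U ⊔ C) hUS.le hsyl hUCN
        (fun n hn => mem_normalizer_iff'.2 (hUCn n hn)) ?_ ?_ hbig
      · intro A c _ hcA
        refine ⟨1, one_mem _, ?_⟩
        intro a ha
        have := Subgroup.mem_centralizer_iff.1 hcA a ha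
        rw [one_mul, inv_one, mul_one, ← this]; group
      · refine lt_of_le_of_ne (le_inf hUS.le le_sup_left) ?_
        intro heq
        apply hc
        rw [heq]
        exact le_inf inf_le_left (inf_le_right.trans le_sup_right)
      · intro m hm
        rw [mem_sup_iff_of_le_normalizer hUN] at hm
        obtain ⟨c, hc', u, hu, rfl⟩ := hm
        exact ⟨u, ⟨hUS.le hu, Subgroup.mem_sup_left hu⟩, c, hc', rfl⟩

end fus

end H8.DP
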