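import Cfsg.Agent.Lib.H8.DP1
import Cfsg.Agent.Lib.H19.HallNC2

/-!
# D_π-groups that are π-homogeneous have normal π-complements
-/

set_option autoImplicit false

namespace H8.DP

open Cfsg H38.Basic H38.Alperin H38.Goldschmidt

universe u

section

variable {G : Type u} [Group G]

/-- every `π`-subgroup is conjugate into `H` -/
def Dom (π : Set ℕ) (H : Subgroup G) : Prop :=
  ∀ K : Subgroup G, IsPiSubgroup π K → ∃ g : G, K.map (MulAut.conj g).toMonoidHom ≤ H

theorem isPi_sup [Finite G] {π : Set ℕ} (K Z : Subgroup G) [Z.Normal] (hK : IsPiSubgroup π K)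
    (hZ : IsPiSubgroup π Z) : IsPiSubgroup π (K ⊔ Z) := by
  intro q hq hd
  have h1 : Nat.card Z * Z.relIndex (K ⊔ Z) = Nat.card (K ⊔ Z : Subgroup G) := by
    have := Subgroup.relIndex_mul_relIndex (⊥ : Subgroup G) Z (K ⊔ Z) bot_le le_sup_right
    rw [Subgroup.relIndex_bot_left, Subgroup.relIndex_bot_left] at this
    exact this
  rw [← h1, Subgroup.relIndex_sup_right] at hd
  rcases (Nat.Prime.dvd_mul hq).1 hd with h | h
  · exact hZ q hq h
  · exact hK q hq (h.trans (Subgroup.relIndex_dvd_card Z K))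

theorem isPi_of_pow {π : Set ℕ} {p a : ℕ} (hp : p.Prime) (hpπ : p ∈ π) {K : Subgroup G}
    (hK : Nat.card K = p ^ a) : IsPiSubgroup π K := by
  intro q hq hd
  rw [hK] at hd
  have := (Nat.prime_dvd_prime_iff_eq hq hp).1 (hq.dvd_of_dvd_pow hd)
  rwa [this]

theorem exists_sylow_le [Finite G] {π : Set ℕ} {H : Subgroup G} (hH : Dom π H) {p : ℕ}
    [Fact p.Prime] (hpπ : p ∈ π) : ∃ S : Sylow p G, (S : Subgroup G) ≤ H := by
  obtain ⟨S⟩ : Nonempty (Sylow p G) := inferInstance
  obtain ⟨n, hn⟩ := IsPGroup.iff_card.1 S.2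
  obtain ⟨g, hg⟩ := hH S (isPi_of_pow Fact.out hpπ hn)
  have h1 : IsSyl p ((S : Subgroup G).map (MulAut.conj g).toMonoidHom) ⊤ :=
    (isSyl_sylow S).conj_mem (g := g) (Subgroup.mem_top _)
  obtain ⟨S', hS'⟩ := isSyl_top_iff.1 h1
  exact ⟨S', by rw [hS']; exact hg⟩

theorem not_dvd_index [Finite G] {π : Set ℕ} {H : Subgroup G} (hH : Dom π H) {p : ℕ}
    (hp : p.Prime) (hpπ : p ∈ π) : ¬ p ∣ H.index := by
  have : Fact p.Prime := ⟨hp⟩
  obtain ⟨S, hS⟩ := exists_sylow_le hH hpπ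
  intro h
  exact S.not_dvd_index (h.trans (Subgroup.index_dvd_of_le hS))

theorem coprime_index [Finite G] {π : Set ℕ} {H : Subgroup G} (hHπ : IsPiSubgroup π H)
    (hH : Dom π H) : Nat.Coprime (Nat.card H) H.index := by
  rw [Nat.coprime_iff_gcd_eq_one]
  by_contra hne
  obtain ⟨q, hq, hqd⟩ := Nat.exists_prime_and_dvd hne
  exact not_dvd_index hH hq (hHπ q hq (hqd.trans (Nat.gcd_dvd_left _ _)))
    (hqd.trans (Nat.gcd_dvd_right _ _))

theorem isPi_map {L : Type u} [Group L] {π : Set ℕ} {K : Subgroup L} (f : L →* G)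
    (hf : Function.Injective f) (hK : IsPiSubgroup π K) : IsPiSubgroup π (K.map f) := by
  intro q hq hd
  rw [Subgroup.card_map_of_injective hf] at hd
  exact hK q hq hd

theorem isPi_of_le {π : Set ℕ} {K H : Subgroup G} [Finite G] (hK : IsPiSubgroup π H)
    (h : K ≤ H) : IsPiSubgroup π K :=
  fun q hq hd => hK q hq (hd.trans (Subgroup.card_dvd_of_le h))

theorem isPi_subgroupOf {π : Set ℕ} {H C : Subgroup G} [Finite G] (hH : IsPiSubgroup π H) :
    IsPiSubgroup π (H.subgroupOf C) := by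
  intro q hq hd
  have h1 : Nat.card ((H.subgroupOf C).map C.subtype) = Nat.card (H.subgroupOf C) :=
    Subgroup.card_map_of_injective C.subtype_injective
  rw [← h1] at hd
  refine hH q hq (hd.trans (Subgroup.card_dvd_of_le ?_))
  rw [Subgroup.subgroupOf_map_subtype]
  exact inf_le_left

theorem phom_subgroup {π : Set ℕ} (hom : PHom π G) (C : Subgroup G) : PHom π C := by
  intro U hU x hx hxπ
  have h1 : (x : G) ∈ Subgroup.centralizer ((U.map C.subtype : Subgroup G) : Set G) := by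
    refine hom _ (isPi_map C.subtype C.subtype_injective hU) _ ?_ ?_
    · rw [mem_normalizer_iff']
      ext y
      rw [mem_conj]
      constructor
      · rintro ⟨z, hz, hzy⟩
        refine ⟨x * z * x⁻¹, (Subgroup.mem_normalizer_iff.1 hx z).1 hz, ?_⟩
        have h2 : y = (x : G) * ((x : G)⁻¹ * y * x) * (x : G)⁻¹ := by group
        rw [h2, ← hzy]
        simp
      · rintro ⟨z, hz, rfl⟩
        refine ⟨x⁻¹ * z * x, ?_, by simp⟩
        have := (Subgroup.mem_normalizer_iff.1 (inv_mem hx) z).1 hz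
        simpa using this
    · intro q hq hd
      rw [Subgroup.orderOf_coe] at hd
      exact hxπ q hq hd
  rw [Subgroup.mem_centralizer_iff] at h1 ⊢
  intro y hy
  exact Subtype.ext (h1 y ⟨y, hy, rfl⟩)

theorem fus_elem [Finite G] {π : Set ℕ} (hom : PHom π G) {H : Subgroup G} (hH : Dom π H)
    {p a : ℕ} (hp : p.Prime) (hpπ : p ∈ π) {u v g : G} (hu : u ∈ H) (hv : v ∈ H)
    (hup : orderOf u = p ^ a) (hg : g * u * g⁻¹ = v) : ∃ h ∈ H, h * u * h⁻¹ = v := by
  have : Fact p.Prime := ⟨hp⟩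
  obtain ⟨S, hS⟩ := exists_sylow_le hH hpπ
  have hSylH : IsSyl p (S : Subgroup G) H := (isSyl_sylow S).of_le hS le_top
  have hvp : orderOf v = p ^ a := by
    rw [← hup, ← hg, ← MulAut.conj_apply]
    exact orderOf_injective (MulAut.conj g).toMonoidHom (MulAut.conj g).injective u
  have hup' : IsPGroup p (Subgroup.zpowers u) :=
    IsPGroup.of_card (n := a) (by rw [Nat.card_zpowers, hup])
  have hvp' : IsPGroup p (Subgroup.zpowers v) :=
    IsPGroup.of_card (n := a) (by rw [Nat.card_zpowers, hvp])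
  obtain ⟨b, hb, hbS⟩ := hSylH.exists_conj_le hup' (by rw [Subgroup.zpowers_le]; exact hu)
  obtain ⟨c, hc, hcS⟩ := hSylH.exists_conj_le hvp' (by rw [Subgroup.zpowers_le]; exact hv)
  have hgz : (Subgroup.zpowers u).map (MulAut.conj g).toMonoidHom = Subgroup.zpowers v := by
    rw [MonoidHom.map_zpowers]
    congr 1
  obtain ⟨h, hh, H1⟩ := fusion hpπ hom hH S hS
    ((Subgroup.zpowers u).map (MulAut.conj b).toMonoidHom) hbS (c * g * b⁻¹) (by
      rw [conj_conj, inv_mul_cancel_right, ← conj_conj, hgz]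
      exact hcS)
  have h1 := H1 (b * u * b⁻¹) (conj_mem_conj.2 (Subgroup.mem_zpowers u))
  refine ⟨c⁻¹ * h * b, mul_mem (mul_mem (inv_mem hc) hh) hb, ?_⟩
  calc c⁻¹ * h * b * u * (c⁻¹ * h * b)⁻¹ = c⁻¹ * (h * (b * u * b⁻¹) * h⁻¹) * c := by group
    _ = g * u * g⁻¹ := by rw [h1]; group
    _ = v := hg

/-- a noncentral element has a noncentral power of prime power order -/
theorem exists_part [Finite G] {x : G} (hx : x ∉ Subgroup.center G) :
    ∃ p a r : ℕ, p.Prime ∧ orderOf (x ^ r) = p ^ a ∧ x ^ r ∉ Subgroup.center G := by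
  have h1 : orderOf (QuotientGroup.mk' (Subgroup.center G) x) ≠ 1 := by
    rw [Ne, orderOf_eq_one_iff, QuotientGroup.mk'_apply, QuotientGroup.eq_one_iff]
    exact hx
  obtain ⟨p, hp, hpd⟩ := Nat.exists_prime_and_dvd h1
  obtain ⟨a, m, hm, hym⟩ := Nat.exists_eq_pow_mul_and_not_dvd (orderOf_pos x).ne' p hp.ne_one
  have hm0 : m ≠ 0 := by rintro rfl; exact hm (dvd_zero _)
  refine ⟨p, a, m, hp, ?_, ?_⟩
  · rw [orderOf_pow_of_dvd hm0 (by rw [hym]; exact dvd_mul_left _ _), hym,
      Nat.mul_div_cancel _ (Nat.pos_of_ne_zero hm0)]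
  · intro h
    apply hm
    refine hpd.trans (orderOf_dvd_of_pow_eq_one ?_)
    rw [← map_pow, QuotientGroup.mk'_apply, QuotientGroup.eq_one_iff]
    exact h

/-- the centralizer of a `p`-element of `H` -/
theorem dom_centralizer [Finite G] {π : Set ℕ} (hom : PHom π G) {H : Subgroup G} (hH : Dom π H)
    {p a : ℕ} (hp : p.Prime) (hpπ : p ∈ π) {v : G} (hv : v ∈ H)
    (hvp : orderOf v = p ^ a) :
    Dom π (H.subgroupOf (Subgroup.centralizer {v})) := by
  set C := Subgroup.centralizer ({v} : Set G) with hC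
  intro K hK
  have hvC : v ∈ C := by
    rw [hC, Subgroup.mem_centralizer_singleton_iff]
  set v' : C := ⟨v, hvC⟩ with hv'
  have hcen : Subgroup.zpowers v' ≤ Subgroup.center C := by
    rw [Subgroup.zpowers_le, Subgroup.mem_center_iff]
    intro g
    have := Subgroup.mem_centralizer_singleton_iff.1 g.2
    exact Subtype.ext this
  have hZn : (Subgroup.zpowers v').Normal := by
    refine ⟨fun n hn g => ?_⟩
    have := Subgroup.mem_center_iff.1 (hcen hn) g
    rw [this, mul_inv_cancel_right]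
    exact hn
  have hZπ : IsPiSubgroup π (Subgroup.zpowers v') := by
    apply isPi_of_pow (a := a) hp hpπ
    rw [Nat.card_zpowers, ← Subgroup.orderOf_coe, hv', hvp]
  have hY := isPi_map C.subtype C.subtype_injective (isPi_sup K (Subgroup.zpowers v') hK hZπ)
  obtain ⟨g, hg⟩ := hH _ hY
  have hgv : g * v * g⁻¹ ∈ H := hg (conj_mem_conj.2
    ⟨v', Subgroup.mem_sup_right (Subgroup.mem_zpowers v'), rfl⟩)
  obtain ⟨h, hh, hhv⟩ := fus_elem hom hH hp hpπ hv hgv hvp rfl
  have hc : h⁻¹ * g ∈ C := by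
    rw [hC, Subgroup.mem_centralizer_singleton_iff]
    calc h⁻¹ * g * v = h⁻¹ * (g * v * g⁻¹) * g := by group
      _ = v * (h⁻¹ * g) := by rw [← hhv]; group
  refine ⟨⟨h⁻¹ * g, hc⟩, ?_⟩
  rintro _ ⟨k, hk, rfl⟩
  rw [Subgroup.mem_subgroupOf]
  have h1 : g * (k : G) * g⁻¹ ∈ H := hg (conj_mem_conj.2 ⟨k, Subgroup.mem_sup_left hk, rfl⟩)
  have h2 : ((MulAut.conj (⟨h⁻¹ * g, hc⟩ : C)).toMonoidHom k : G) =
      h⁻¹ * (g * (k : G) * g⁻¹) * h := by
    simp [mul_assoc]
  rw [h2]
  exact mul_mem (mul_mem (inv_mem hh) h1) hh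

end

theorem main (π : Set ℕ) : ∀ (n : ℕ) (G : Type u) [Group G] [Finite G], Nat.card G ≤ n →
    PHom π G → ∀ H : Subgroup G, IsPiSubgroup π H → Dom π H →
    ∃ K : Subgroup G, K.Normal ∧ K ⊔ H = ⊤ ∧ K ⊓ H = ⊥ := by
  intro n
  induction n with
  | zero =>
    intro G _ _ hn
    have := Nat.card_pos (α := G)
    omega
  | succ n ih =>
    intro G _ _ hn hom H hHπ hH
    refine H19.HallNC.main H (coprime_index hHπ hH) ?_ ?_
    · intro x hx y hy hxy
      obtain ⟨g, hg⟩ := isConj_iff.1 hxy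
      by_cases hxc : x ∈ Subgroup.center G
      · refine ⟨1, one_mem _, ?_⟩
        have := Subgroup.mem_center_iff.1 hxc g
        rw [← hg, this]; group
      obtain ⟨p, a, r, hp, hor, hxr⟩ := exists_part hxc
      have ha : a ≠ 0 := by
        rintro rfl
        rw [pow_zero, orderOf_eq_one_iff] at hor
        exact hxr (by rw [hor]; exact one_mem _)
      have hpπ : p ∈ π := by
        apply hHπ p hp
        have h1 : p ∣ orderOf (x ^ r) := by rw [hor]; exact dvd_pow_self p ha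
        exact h1.trans (Subgroup.orderOf_dvd_natCard H (pow_mem hx r))
      have hgr : g * x ^ r * g⁻¹ = y ^ r := by rw [← hg, conj_pow]
      obtain ⟨h₁, hh₁, H1⟩ := fus_elem hom hH hp hpπ (pow_mem hx r) (pow_mem hy r) hor hgr
      have hvr : orderOf (y ^ r) = p ^ a := by
        rw [← hor, ← hgr, ← MulAut.conj_apply]
        exact orderOf_injective (MulAut.conj g).toMonoidHom (MulAut.conj g).injective _
      have hyr : y ^ r ∉ Subgroup.center G := by
        intro h
        apply hxr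
        have h1 : x ^ r = g⁻¹ * y ^ r * g := by rw [← hgr]; group
        rw [h1, mul_assoc, ← Subgroup.mem_center_iff.1 h g, inv_mul_cancel_left]
        exact h
      set C := Subgroup.centralizer ({y ^ r} : Set G) with hC
      have hCt : C ≠ ⊤ := by
        intro h
        apply hyr
        rw [Subgroup.mem_center_iff]
        intro g
        have h2 : g ∈ C := by rw [h]; exact Subgroup.mem_top g
        exact Subgroup.mem_centralizer_singleton_iff.1 h2
      have hcard : Nat.card C ≤ n := by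
        have h1 : Nat.card C < Nat.card G := by
          by_contra hle
          exact hCt (Subgroup.eq_top_of_le_card C (not_lt.1 hle))
        omega
      obtain ⟨K, hKn, hKH, hKi⟩ := ih C hcard (phom_subgroup hom C) (H.subgroupOf C)
        (isPi_subgroupOf hHπ) (dom_centralizer hom hH hp hpπ (pow_mem hy r) hvr)
      have hyC : y ∈ C := by
        rw [hC, Subgroup.mem_centralizer_singleton_iff, ← pow_succ, ← pow_succ']
      have hx₁C : h₁ * x * h₁⁻¹ ∈ C := by
        rw [hC, Subgroup.mem_centralizer_singleton_iff, ← H1, ← conj_pow, ← pow_succ, ← pow_succ']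
      have hcC : g * h₁⁻¹ ∈ C := by
        rw [hC, Subgroup.mem_centralizer_singleton_iff]
        calc g * h₁⁻¹ * y ^ r = g * x ^ r * h₁⁻¹ := by rw [← H1]; group
          _ = y ^ r * (g * h₁⁻¹) := by rw [← hgr]; group
      set x₁ : C := ⟨h₁ * x * h₁⁻¹, hx₁C⟩ with hx₁
      set y₁ : C := ⟨y, hyC⟩ with hy₁
      set c : C := ⟨g * h₁⁻¹, hcC⟩ with hc
      have hcx : c * x₁ * c⁻¹ = y₁ := by
        apply Subtype.ext
        change g * h₁⁻¹ * (h₁ * x * h₁⁻¹) * (g * h₁⁻¹)⁻¹ = y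
        rw [← hg]; group
      have hcK : c ∈ K ⊔ H.subgroupOf C := by rw [hKH]; exact Subgroup.mem_top _
      rw [← SetLike.mem_coe, Subgroup.normal_mul] at hcK
      obtain ⟨k, hk, h, hh, hkh⟩ := Set.mem_mul.1 hcK
      have hx₁H : x₁ ∈ H.subgroupOf C := by
        rw [Subgroup.mem_subgroupOf]
        exact mul_mem (mul_mem hh₁ hx) (inv_mem hh₁)
      have hy₁H : y₁ ∈ H.subgroupOf C := hy
      have hzH : h * x₁ * h⁻¹ ∈ H.subgroupOf C := mul_mem (mul_mem hh hx₁H) (inv_mem hh)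
      have hyz : y₁ * (h * x₁ * h⁻¹)⁻¹ = k * ((h * x₁ * h⁻¹) * k⁻¹ * (h * x₁ * h⁻¹)⁻¹) := by
        rw [← hcx, ← hkh]; group
      have h1 : y₁ * (h * x₁ * h⁻¹)⁻¹ ∈ K ⊓ H.subgroupOf C := by
        refine Subgroup.mem_inf.2 ⟨?_, mul_mem hy₁H (inv_mem hzH)⟩
        rw [hyz]
        exact mul_mem hk (hKn.conj_mem _ (inv_mem hk) _)
      rw [hKi, Subgroup.mem_bot, mul_inv_eq_one] at h1
      refine ⟨(h : G) * h₁, mul_mem hh hh₁, ?_⟩
      have h2 := congrArg (Subtype.val) h1
      have h3 : y = (h : G) * (h₁ * x * h₁⁻¹) * (h : G)⁻¹ := h2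
      rw [h3]; group
    · intro E p hp _ hE
      exact hH E (fun q hq hd => hHπ q hq (hd.trans hE))

end H8.DP
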