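import Cfsg.Agent.Lib.H98.PGLMax2
import Cfsg.Agent.Lib.H50.PSLOut
import Cfsg.Agent.Lib.H50.PSLField
import Cfsg.Agent.Lib.H70.SolvRad

/-! Facts on `PGL₂(p)`. -/

set_option autoImplicit false

universe u v

namespace H8.Y1

open Subgroup
open scoped commutatorElement

/-- the facts on `PGL₂(q)` used in the reduction -/
structure PD (Y : Type u) [Group Y] (q : ℕ) : Prop where
  ex : ∃ S : Subgroup Y, S.Normal ∧ IsSimpleGroup S ∧ ¬ (∀ a ∈ S, ∀ b ∈ S, a * b = b * a) ∧ S.index = 2 ∧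
    centralizer (S : Set Y) = ⊥ ∧ Nat.card (MulAut S) ≤ Nat.card Y
  card : Nat.card Y = (q + 1) * (q * (q - 1))

/-- `X` is `PGL₂(p)` -/
def IsP (X : Type u) [Group X] (p : ℕ) : Prop :=
  p.Prime ∧ 3 < p ∧ ∃ (F : Type) (_ : Field F) (_ : Fintype F), Fintype.card F = p ∧
    Nonempty (X ≃* (GL (Fin 2) F ⧸ Subgroup.center (GL (Fin 2) F)))

theorem IsP.of_equiv {X : Type u} {Y : Type v} [Group X] [Group Y] {p : ℕ} (e : X ≃* Y) (h : IsP Y p) : IsP X p := by
  obtain ⟨hp, h3, F, i1, i2, hF, ⟨f⟩⟩ := h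
  exact ⟨hp, h3, F, i1, i2, hF, ⟨e.trans f⟩⟩

theorem PD.of_equiv {X : Type u} {Y : Type v} [Group X] [Group Y] {q : ℕ} (e : X ≃* Y) (h : PD Y q) : PD X q where
  card := by rw [Nat.card_congr e.toEquiv, h.card]
  ex := by
    obtain ⟨S, hSn, hSs, hSc, hSi, hSz, hSa⟩ := h.ex
    have e' : S.comap e.toMonoidHom ≃* S :=
      { toFun := fun x => ⟨e x, x.2⟩
        invFun := fun y => ⟨e.symm y, by
          change e (e.symm y) ∈ S
          rw [MulEquiv.apply_symm_apply]; exact y.2⟩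
        left_inv := fun x => Subtype.ext (e.symm_apply_apply _)
        right_inv := fun y => Subtype.ext (e.apply_symm_apply _)
        map_mul' := fun x y => Subtype.ext (map_mul e _ _) }
    refine ⟨S.comap e.toMonoidHom, inferInstance, ?_, ?_, ?_, ?_, ?_⟩
    · exact (MulEquiv.isSimpleGroup_congr e').2 hSs
    · intro hab
      apply hSc
      intro a ha b hb
      have h1 := hab (e.symm a) (by change e (e.symm a) ∈ S; rwa [MulEquiv.apply_symm_apply]) (e.symm b)
        (by change e (e.symm b) ∈ S; rwa [MulEquiv.apply_symm_apply])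
      rw [← map_mul, ← map_mul] at h1
      exact e.symm.injective h1
    · rw [index_comap_of_surjective S (f := e.toMonoidHom) e.surjective, hSi]
    · rw [eq_bot_iff]
      intro x hx
      have h1 : e x ∈ centralizer (S : Set Y) := by
        rw [mem_centralizer_iff] at hx ⊢
        intro s hs
        have h2 := hx (e.symm s) (by change e (e.symm s) ∈ S; rwa [MulEquiv.apply_symm_apply])
        have h3 := congrArg e h2
        rwa [map_mul, map_mul, MulEquiv.apply_symm_apply] at h3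
      rw [hSz, mem_bot] at h1
      rw [mem_bot]
      exact e.injective (h1.trans (map_one e).symm)
    · rw [Nat.card_congr (MulAut.congr e').toEquiv, Nat.card_congr e.toEquiv]
      exact hSa

section
variable {F : Type} [Field F] [Fintype F]

open Matrix in
omit [Fintype F] in
theorem sc_eq (u : Fˣ) : H50.PSLField.sc u = (GeneralLinearGroup.scalar (Fin 2) u : GL (Fin 2) F) := by
  apply Units.ext
  rw [H50.PSLField.sc_coe, GeneralLinearGroup.coe_scalar]
  ext i j
  fin_cases i <;> fin_cases j <;> simp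

open Matrix in
theorem card_mulAut_psl {p : ℕ} (hp : p.Prime) (hF : Fintype.card F = p) :
    Nat.card (MulAut (ProjectiveSpecialLinearGroup (Fin 2) F)) ≤ Nat.card (ProjGenLinGroup (Fin 2) F) := by
  have hfp : Fact p.Prime := ⟨hp⟩
  have hFn : Nat.card F = p ^ 1 := by rw [Nat.card_eq_fintype_card, hF, pow_one]
  have hchar : CharP F p := H50.FieldAut.charP_of_card p hFn
  have hcard : Nat.card (F ≃+* F) = 1 := H50.FieldAut.card_ringAut p hFn
  have hσ : ∀ σ : F ≃+* F, σ = RingEquiv.refl F := by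
    have : Subsingleton (F ≃+* F) := (Nat.card_eq_one_iff_unique.1 hcard).1
    intro σ; exact Subsingleton.elim _ _
  let f : GL (Fin 2) F →* MulAut (ProjectiveSpecialLinearGroup (Fin 2) F) :=
    MonoidHom.mk' (fun g => H50.PSLBasic.psi g (RingEquiv.refl F)) (by
      intro g h
      rw [H50.PSLBasic.psi_mul]
      congr 1)
  have hker : Subgroup.center (GL (Fin 2) F) ≤ f.ker := by
    intro g hg
    rw [MonoidHom.mem_ker]
    change H50.PSLBasic.psi g (RingEquiv.refl F) = 1
    rw [H50.PSLField.psi_eq_one_iff]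
    rw [GeneralLinearGroup.center_eq_range_scalar] at hg
    obtain ⟨u, hu⟩ := hg
    exact ⟨rfl, u, by rw [sc_eq]; exact hu.symm⟩
  let g : ProjGenLinGroup (Fin 2) F →* MulAut (ProjectiveSpecialLinearGroup (Fin 2) F) := QuotientGroup.lift _ f hker
  apply Nat.card_le_card_of_surjective g
  intro α
  obtain ⟨a, σ, h | ⟨h, -⟩⟩ := H50.AutPSL2.aut_psl (p := p) (le_refl 2) α
  · refine ⟨ProjGenLinGroup.mk a, ?_⟩
    rw [hσ σ] at h
    rw [h]
    rfl
  · omega

open Matrix in
theorem centralizer_LL : centralizer (H98.PGLMax1.LL F : Set (ProjGenLinGroup (Fin 2) F)) = ⊥ := by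
  rw [eq_bot_iff]
  intro z hz
  obtain ⟨g, rfl⟩ := ProjGenLinGroup.mk_surjective z
  rw [mem_centralizer_iff] at hz
  have h1 : H50.PSLBasic.psi g (RingEquiv.refl F) = 1 := by
    ext x
    obtain ⟨s, rfl⟩ := QuotientGroup.mk_surjective x
    rw [H50.PSLBasic.psi_mk, MulAut.one_apply]
    apply ProjectiveSpecialLinearGroup.toPGL_injective
    have h2 := hz (ProjGenLinGroup.mk (SpecialLinearGroup.toGL s)) ⟨s, rfl⟩
    have h3 : SpecialLinearGroup.toGL (H50.PSLBasic.semiSL g (RingEquiv.refl F) s) = g * SpecialLinearGroup.toGL s * g⁻¹ := by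
      apply Units.ext
      rfl
    change ProjGenLinGroup.mk (SpecialLinearGroup.toGL (H50.PSLBasic.semiSL g (RingEquiv.refl F) s)) =
      ProjGenLinGroup.mk (SpecialLinearGroup.toGL s)
    rw [h3, map_mul, map_mul, map_inv, ← h2, mul_inv_cancel_right]
  rw [H50.PSLField.psi_eq_one_iff] at h1
  obtain ⟨-, u, hu⟩ := h1
  rw [mem_bot, ProjGenLinGroup.mk_eq_one, GeneralLinearGroup.center_eq_range_scalar]
  rw [sc_eq] at hu
  exact ⟨u, hu.symm⟩

end

open Matrix in
theorem pd_of_isP {X : Type u} [Group X] {p : ℕ} (h : IsP X p) : PD X p := by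
  obtain ⟨hp, h3, F, _, _, hF, ⟨e⟩⟩ := h
  have hFn : Nat.card F = p := by rw [Nat.card_eq_fintype_card, hF]
  refine PD.of_equiv (Y := ProjGenLinGroup (Fin 2) F) e ?_
  have hs : IsSimpleGroup (H98.PGLMax1.LL F) := H98.PGLMax2.simple_LL (by omega)
  have hns : ¬ Group.IsSolvable (H98.PGLMax1.LL F) := H98.PGLMax2.not_solvable_LL (by omega)
  refine ⟨⟨H98.PGLMax1.LL F, inferInstance, hs, ?_, ?_, centralizer_LL, ?_⟩, ?_⟩
  · intro hab
    apply hns
    apply Group.isSolvable_of_comm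
    intro a b
    exact Subtype.ext (hab a a.2 b b.2)
  · rw [H98.PGLMax2.index_LL, hFn]
    exact Nat.gcd_eq_left (by
      have := hp.even_sub_one (by omega)
      exact even_iff_two_dvd.1 this)
  · rw [← Nat.card_congr (MulAut.congr (H98.PGLMax2.equivLL F)).toEquiv]
    exact card_mulAut_psl hp hF
  · rw [H98.PGLMax2.card_PGL, hFn]

/-- nontrivial normal subgroups -/
theorem le_of_normal {Y : Type u} [Group Y] {S : Subgroup Y} [S.Normal] [hs : IsSimpleGroup S]
    (hz : centralizer (S : Set Y) = ⊥) {N : Subgroup Y} [hN : N.Normal] (hne : N ≠ ⊥) : S ≤ N := by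
  have hn : (N.subgroupOf S).Normal := inferInstance
  rcases hn.eq_bot_or_eq_top with h | h
  · exfalso
    apply hne
    rw [eq_bot_iff, ← hz]
    intro x hx
    rw [mem_centralizer_iff]
    intro s hsS
    have h1 : s * x * s⁻¹ * x⁻¹ ∈ N := mul_mem (hN.conj_mem x hx s) (inv_mem hx)
    have h2 : s * x * s⁻¹ * x⁻¹ ∈ S := by
      have h3 : x * s⁻¹ * x⁻¹ ∈ S := (inferInstance : S.Normal).conj_mem s⁻¹ (inv_mem hsS) x
      have e : s * x * s⁻¹ * x⁻¹ = s * (x * s⁻¹ * x⁻¹) := by group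
      rw [e]; exact mul_mem hsS h3
    have h3 : (⟨_, h2⟩ : S) ∈ N.subgroupOf S := by rw [mem_subgroupOf]; exact h1
    rw [h, mem_bot] at h3
    have h4 : s * x * s⁻¹ * x⁻¹ = 1 := congrArg Subtype.val h3
    exact mul_inv_eq_iff_eq_mul.1 (mul_inv_eq_one.1 h4)
  · exact subgroupOf_eq_top.1 h

/-- perfect nontrivial normal subgroups -/
theorem eq_of_perfect {Y : Type u} [Group Y] {S : Subgroup Y} [S.Normal] [hs : IsSimpleGroup S]
    (hz : centralizer (S : Set Y) = ⊥) (hi : S.index = 2) {N : Subgroup Y} [hN : N.Normal] (hne : N ≠ ⊥)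
    (hp : ⁅N, N⁆ = N) : N = S := by
  apply le_antisymm _ (le_of_normal hz hne)
  rw [← hp, commutator_le]
  intro a _ b _
  have hsq : ∀ x y : Y ⧸ S, x * y = y * x := by
    have hc : Nat.card (Y ⧸ S) = 2 := by rw [← index_eq_card, hi]
    have : Fact (Nat.Prime 2) := ⟨Nat.prime_two⟩
    have hcy : IsCyclic (Y ⧸ S) := isCyclic_of_prime_card hc
    intro x y
    exact (IsCyclic.commGroup (α := Y ⧸ S)).mul_comm x y
  have h1 := hsq (QuotientGroup.mk a) (QuotientGroup.mk b)
  have h2 : (QuotientGroup.mk ⁅a, b⁆ : Y ⧸ S) = 1 := by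
    rw [commutatorElement_def]
    change (QuotientGroup.mk a : Y ⧸ S) * QuotientGroup.mk b * (QuotientGroup.mk a)⁻¹ * (QuotientGroup.mk b)⁻¹ = 1
    rw [h1]; group
  exact (QuotientGroup.eq_one_iff _).1 h2

end H8.Y1
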