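import Cfsg.Agent.Lib.H8.Y1a

/-! Factorizations `G = AB` with `A` cyclic and `B` a `Z`-group: the reduction to primitive groups. -/

set_option autoImplicit false
set_option linter.unusedVariables false

universe u v

namespace H8.Y1

open Subgroup MulAction

structure Fac {G : Type u} [Group G] (A B : Subgroup G) : Prop where
  cyc : IsCyclic A
  zg : IsZGroup B
  prod : ∀ g : G, ∃ a ∈ A, ∃ b ∈ B, g = a * b

/-- nonsolvable with trivial radical -/
structure TR (G : Type u) [Group G] : Prop where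
  ns : ¬ Group.IsSolvable G
  rad : ∀ N : Subgroup G, N.Normal → Group.IsSolvable N → N = ⊥

section
variable {G : Type u} [Group G]

theorem Fac.map [Finite G] {H : Type v} [Group H] {A B : Subgroup G} (h : Fac A B) (f : G →* H)
    (hf : Function.Surjective f) : Fac (A.map f) (B.map f) := by
  obtain ⟨h1, h2, h3⟩ := h
  refine ⟨?_, ?_, ?_⟩
  · exact isCyclic_of_surjective (f.subgroupMap A) (f.subgroupMap_surjective A)
  · exact IsZGroup.of_surjective (f := f.subgroupMap B) (f.subgroupMap_surjective B)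
  · intro y
    obtain ⟨x, rfl⟩ := hf y
    obtain ⟨a, ha, b, hb, rfl⟩ := h3 x
    exact ⟨f a, ⟨a, ha, rfl⟩, f b, ⟨b, hb, rfl⟩, map_mul f a b⟩

theorem Fac.sub {A B M : Subgroup G} (h : Fac A B) (hB : B ≤ M) : Fac (A.subgroupOf M) (B.subgroupOf M) := by
  obtain ⟨h1, h2, h3⟩ := h
  refine ⟨?_, ?_, ?_⟩
  · let f : A.subgroupOf M →* A :=
      { toFun := fun x => ⟨x.1.1, x.2⟩
        map_one' := rfl
        map_mul' := fun x y => rfl }
    exact isCyclic_of_injective f (fun x y hxy => Subtype.ext (Subtype.ext (congrArg (fun z : A => (z : G)) hxy)))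
  · exact IsZGroup.of_injective (f := (subgroupOfEquivOfLe hB).toMonoidHom) (subgroupOfEquivOfLe hB).injective
  · rintro ⟨m, hm⟩
    obtain ⟨a, ha, b, hb, rfl⟩ := h3 m
    have hbM := hB hb
    have haM : a ∈ M := by
      have := mul_mem hm (inv_mem hbM)
      rwa [mul_inv_cancel_right] at this
    exact ⟨⟨a, haM⟩, ha, ⟨b, hbM⟩, hb, rfl⟩

theorem TR_srad [Finite G] (h : ¬ Group.IsSolvable G) : TR (G ⧸ H70.SolvRad.srad G) := by
  have hs := H70.SolvRad.isSolvable_srad (G := G)
  constructor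
  · intro hq
    apply h
    exact Group.isSolvable_of_ker_le_range (H70.SolvRad.srad G).subtype (QuotientGroup.mk' (H70.SolvRad.srad G)) (by
      rw [QuotientGroup.ker_mk', range_subtype])
  · intro N hN hNs
    have h1 := H70.SolvRad.le_srad hN hNs
    have h2 := (comap_mono (f := QuotientGroup.mk' (H70.SolvRad.srad G)) h1).trans
      (H70.SolvRad.comap_srad_le (H70.SolvRad.srad G) hs)
    rw [eq_bot_iff]
    intro x hx
    obtain ⟨g, rfl⟩ := QuotientGroup.mk_surjective x
    rw [mem_bot]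
    exact (QuotientGroup.eq_one_iff g).2 (h2 hx)

end

/-- the statement for primitive groups -/
def HXS : Prop := ∀ (X Ω : Type u) [Group X] [Finite X] [Finite Ω] [MulAction X Ω] [FaithfulSMul X Ω]
  (Γ : Subgroup X), IsPreprimitive X Ω → IsCyclic Γ → (∀ a b : Ω, ∃ g ∈ Γ, g • a = b) →
  (∃ a : Ω, IsZGroup (stabilizer X a)) → ¬ Group.IsSolvable X → ∃ r, IsP X r ∧ Nat.card Ω = r + 1

section
variable {G : Type u} [Group G] [Finite G]

theorem inf_le_core {A B M : Subgroup G} (h : Fac A B) (hBM : B ≤ M) : A ⊓ M ≤ M.normalCore := by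
  rintro x ⟨hxA, hxM⟩ g
  obtain ⟨a, ha, b, hb, hg⟩ := h.prod g⁻¹
  have hc := h.cyc
  have h1 : x * a = a * x := by
    have := (IsCyclic.commGroup (α := A)).mul_comm ⟨x, hxA⟩ ⟨a, ha⟩
    exact congrArg Subtype.val this
  have h2 : g = b⁻¹ * a⁻¹ := by
    rw [← inv_inv g, hg, mul_inv_rev]
  have h3 : g * x * g⁻¹ = b⁻¹ * x * b := by
    rw [h2]
    calc b⁻¹ * a⁻¹ * x * (b⁻¹ * a⁻¹)⁻¹ = b⁻¹ * a⁻¹ * (x * a) * b := by group
      _ = b⁻¹ * x * b := by rw [h1]; group
  rw [h3]
  exact mul_mem (mul_mem (inv_mem (hBM hb)) hxM) (hBM hb)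

theorem index_eq {A B M : Subgroup G} (h : Fac A B) (hBM : B ≤ M) : M.relIndex A = M.index := by
  have h1 : IsPretransitive A (G ⧸ M) := by
    have key : ∀ b : G ⧸ M, ∃ g : A, g • ((1 : G) : G ⧸ M) = b := by
      intro b
      obtain ⟨g, rfl⟩ := QuotientGroup.mk_surjective b
      obtain ⟨a, ha, b, hb, rfl⟩ := h.prod g
      refine ⟨⟨a, ha⟩, ?_⟩
      change ((a * 1 : G) : G ⧸ M) = ((a * b : G) : G ⧸ M)
      rw [mul_one]
      apply QuotientGroup.eq.2
      rw [inv_mul_cancel_left]
      exact hBM hb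
    constructor
    intro x y
    obtain ⟨a, rfl⟩ := key x
    obtain ⟨b, rfl⟩ := key y
    exact ⟨b * a⁻¹, by rw [smul_smul, inv_mul_cancel_right]⟩
  have h2 : stabilizer A ((1 : G) : G ⧸ M) = M.subgroupOf A := by
    ext x
    rw [mem_stabilizer_iff, mem_subgroupOf]
    change (((x : G) * 1 : G) : G ⧸ M) = ((1 : G) : G ⧸ M) ↔ _
    rw [mul_one, QuotientGroup.eq, mul_one, inv_mem_iff]
  rw [relIndex, ← h2, index_stabilizer_of_transitive, index_eq_card]

/-- the primitive action on the cosets of a maximal subgroup containing `B` -/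
theorem action (HX : HXS.{u}) {A B M : Subgroup G} (h : Fac A B) (hM : IsCoatom M) (hBM : B ≤ M)
    (hns : ¬ Group.IsSolvable (G ⧸ M.normalCore)) :
    ∃ r, IsP (G ⧸ M.normalCore) r ∧ M.index = r + 1 := by
  let φ := MulAction.toPermHom G (G ⧸ M)
  have hker : φ.ker = M.normalCore := (normalCore_eq_ker M).symm
  let X := φ.range
  have e : G ⧸ M.normalCore ≃* X :=
    (QuotientGroup.quotientMulEquivOfEq hker.symm).trans (QuotientGroup.quotientKerEquivRange φ)
  have hne : Nontrivial (G ⧸ M) := by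
    rw [← Finite.one_lt_card_iff_nontrivial]
    have h1 : M.index ≠ 1 := fun h => hM.1 (index_eq_one.1 h)
    have h2 : M.index ≠ 0 := index_ne_zero_of_finite
    rw [← index_eq_card]; omega
  have hst : stabilizer G ((1 : G) : G ⧸ M) = M := MulAction.stabilizer_quotient M
  have hprim : IsPreprimitive G (G ⧸ M) := by
    rw [← isCoatom_stabilizer_iff_preprimitive G ((1 : G) : G ⧸ M), hst]
    exact hM
  have hprimX : IsPreprimitive X (G ⧸ M) := by
    let f : (G ⧸ M) →ₑ[φ.rangeRestrict] (G ⧸ M) :=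
      { toFun := id
        map_smul' := fun g x => rfl }
    exact IsPreprimitive.of_surjective (f := f) Function.surjective_id
  have hX := HX X (G ⧸ M) (A.map φ.rangeRestrict) hprimX ?_ ?_ ?_ ?_
  · obtain ⟨r, h1, h2⟩ := hX
    exact ⟨r, h1.of_equiv e, h2⟩
  · have := h.cyc
    exact isCyclic_of_surjective (φ.rangeRestrict.subgroupMap A) (φ.rangeRestrict.subgroupMap_surjective A)
  · have key : ∀ b : G ⧸ M, ∃ g ∈ A, g • ((1 : G) : G ⧸ M) = b := by
      intro b
      obtain ⟨g, rfl⟩ := QuotientGroup.mk_surjective b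
      obtain ⟨a, ha, b, hb, rfl⟩ := h.prod g
      refine ⟨a, ha, ?_⟩
      change ((a * 1 : G) : G ⧸ M) = ((a * b : G) : G ⧸ M)
      rw [mul_one]
      apply QuotientGroup.eq.2
      rw [inv_mul_cancel_left]
      exact hBM hb
    intro a b
    obtain ⟨x, hx, rfl⟩ := key a
    obtain ⟨y, hy, rfl⟩ := key b
    refine ⟨φ.rangeRestrict (y * x⁻¹), ⟨_, mul_mem hy (inv_mem hx), rfl⟩, ?_⟩
    change (y * x⁻¹) • x • ((1 : G) : G ⧸ M) = _
    rw [smul_smul, inv_mul_cancel_right]
  · refine ⟨((1 : G) : G ⧸ M), ?_⟩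
    have hz : IsZGroup (B.map φ.rangeRestrict) := by
      have := h.zg
      exact IsZGroup.of_surjective (f := φ.rangeRestrict.subgroupMap B) (φ.rangeRestrict.subgroupMap_surjective B)
    have hle : stabilizer X ((1 : G) : G ⧸ M) ≤ B.map φ.rangeRestrict := by
      intro x hx
      obtain ⟨g, rfl⟩ := φ.rangeRestrict_surjective x
      have hg : g ∈ M := by
        rw [← hst]
        exact hx
      obtain ⟨a, ha, b, hb, rfl⟩ := h.prod g
      have haM : a ∈ M := by
        have := mul_mem hg (inv_mem (hBM hb))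
        rwa [mul_inv_cancel_right] at this
      have h1 : a ∈ φ.ker := by
        rw [hker]; exact inf_le_core h hBM ⟨ha, haM⟩
      refine ⟨b, hb, ?_⟩
      apply Subtype.ext
      change φ b = φ (a * b)
      rw [map_mul, MonoidHom.mem_ker.1 h1, one_mul]
    exact IsZGroup.of_injective (f := inclusion hle) (inclusion_injective hle)
  · intro hs
    apply hns
    exact Group.isSolvable_of_isSolvable_injective (f := e.toMonoidHom) e.injective

end

end H8.Y1
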