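import Cfsg.Agent.Lib.H8.Y1b

/-! Factorizations `G = AB` with `A` cyclic and `B` a `Z`-group: the induction. -/

set_option autoImplicit false
set_option linter.unusedVariables false

universe u v

namespace H8.Y1

open Subgroup MulAction
open scoped commutatorElement

theorem range_eq {L : Type u} [Group L] [Nontrivial L] (hL : ⁅(⊤ : Subgroup L), (⊤ : Subgroup L)⁆ = ⊤) {Y : Type v} [Group Y]
    (g : L →* Y) (hg : Function.Injective g) (hn : g.range.Normal) {S : Subgroup Y} [S.Normal]
    [hs : IsSimpleGroup S] (hz : centralizer (S : Set Y) = ⊥) (hi : S.index = 2) : g.range = S := by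
  apply eq_of_perfect hz hi
  · intro h
    obtain ⟨x, hx⟩ := exists_ne (1 : L)
    apply hx
    apply hg
    have : g x ∈ g.range := ⟨x, rfl⟩
    rw [h, mem_bot] at this
    rw [this, map_one]
  · rw [MonoidHom.range_eq_map, ← map_commutator, hL]

theorem not_solvable_of_perfect {L : Type u} [Group L] [Nontrivial L] (hL : ⁅(⊤ : Subgroup L), (⊤ : Subgroup L)⁆ = ⊤) :
    ¬ Group.IsSolvable L := by
  intro hs
  have : commutator L = ⊤ := hL
  exact absurd this (Group.IsSolvable.commutator_lt_top_of_nontrivial L).ne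

theorem perfect_top {G : Type u} [Group G] {L : Subgroup G} (hL : ⁅L, L⁆ = L) :
    ⁅(⊤ : Subgroup L), (⊤ : Subgroup L)⁆ = ⊤ := by
  apply Subgroup.map_injective L.subtype_injective
  rw [map_commutator, ← MonoidHom.range_eq_map, range_subtype, hL]

theorem card_aut_le {G : Type u} [Group G] [Finite G] {L : Subgroup G} [L.Normal]
    (hC : centralizer (L : Set G) = ⊥) : Nat.card G ≤ Nat.card (MulAut L) := by
  have : Finite (MulAut L) := inferInstance
  apply Nat.card_le_card_of_injective (MulAut.conjNormal (H := L) : G → MulAut L)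
  rw [injective_iff_map_eq_one]
  intro g hg
  have : g ∈ centralizer (L : Set G) := by
    rw [mem_centralizer_iff]
    intro l hl
    have h1 := congrArg (fun φ : MulAut L => ((φ ⟨l, hl⟩ : L) : G)) hg
    change g * l * g⁻¹ = l at h1
    exact (mul_inv_eq_iff_eq_mul.1 h1).symm
  rwa [hC, mem_bot] at this

theorem cube_inj {p q : ℕ} (hp : 3 < p) (hq : 3 < q) (h : (p + 1) * (p * (p - 1)) = (q + 1) * (q * (q - 1))) : p = q := by
  have key : ∀ a b : ℕ, 3 < a → a < b → (a + 1) * (a * (a - 1)) < (b + 1) * (b * (b - 1)) := by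
    intro a b ha hab
    apply Nat.mul_lt_mul'' (by omega)
    exact Nat.mul_lt_mul'' hab (by omega)
  rcases lt_trichotomy p q with h1 | h1 | h1
  · exact absurd h (key p q hp h1).ne
  · exact h1
  · exact absurd h.symm (key q p hq h1).ne

/-- trivial radical of `G / C_G(L)` -/
theorem TR_quot {G : Type u} [Group G] [Finite G] {L : Subgroup G} [hLn : L.Normal] [IsSimpleGroup L]
    (hL : ⁅L, L⁆ = L) (hLC : ∀ x ∈ L, x ∈ centralizer (L : Set G) → x = 1) : TR (G ⧸ centralizer (L : Set G)) := by
  have hns : ¬ Group.IsSolvable L := not_solvable_of_perfect (perfect_top hL)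
  let f : L →* G ⧸ centralizer (L : Set G) := (QuotientGroup.mk' _).comp L.subtype
  have hf : Function.Injective f := by
    rw [injective_iff_map_eq_one]
    intro x hx
    exact Subtype.ext (hLC x x.2 ((QuotientGroup.eq_one_iff (x : G)).1 hx))
  have hfn : f.range.Normal := by
    constructor
    rintro _ ⟨x, rfl⟩ y
    obtain ⟨g, rfl⟩ := QuotientGroup.mk_surjective y
    exact ⟨⟨g * x * g⁻¹, hLn.conj_mem x x.2 g⟩, rfl⟩
  have e : L ≃* f.range := MonoidHom.ofInjective hf
  have hsim : IsSimpleGroup f.range := (MulEquiv.isSimpleGroup_congr e).1 inferInstance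
  have hz : centralizer (f.range : Set (G ⧸ centralizer (L : Set G))) = ⊥ := by
    rw [eq_bot_iff]
    intro y hy
    obtain ⟨g, rfl⟩ := QuotientGroup.mk_surjective y
    rw [mem_bot, QuotientGroup.eq_one_iff, mem_centralizer_iff]
    intro l hl
    rw [mem_centralizer_iff] at hy
    have h1 := hy (f ⟨l, hl⟩) ⟨_, rfl⟩
    have h2 : (QuotientGroup.mk (l * g) : G ⧸ centralizer (L : Set G)) = QuotientGroup.mk (g * l) := h1
    rw [QuotientGroup.eq] at h2
    have h3 : (l * g)⁻¹ * (g * l) ∈ L := by
      have e1 : (l * g)⁻¹ * (g * l) = g⁻¹ * l⁻¹ * g * l := by group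
      rw [e1]
      have := hLn.conj_mem l⁻¹ (inv_mem hl) g⁻¹
      rw [inv_inv] at this
      exact mul_mem this hl
    exact inv_mul_eq_one.1 (hLC _ h3 h2)
  constructor
  · intro hs
    exact hns (Group.isSolvable_of_isSolvable_injective hf)
  · intro N hN hNs
    by_contra hne
    have h1 : f.range ≤ N := le_of_normal hz hne
    apply hns
    have h2 : Group.IsSolvable f.range := Group.isSolvable_of_isSolvable_injective (inclusion_injective h1)
    exact Group.isSolvable_of_isSolvable_injective (f := e.toMonoidHom) e.injective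

/-- the induction -/
theorem main (HX : HXS.{u}) : ∀ (n : ℕ) (G : Type u) [Group G] [Finite G] (A B : Subgroup G), Nat.card G = n →
    Fac A B → TR G → ∃ p, IsP G p ∧ Nat.card A = p + 1 := by
  intro n
  induction n using Nat.strong_induction_on with
  | _ n IH =>
  intro G _ _ A B hn h hTR
  have hB : B ≠ ⊤ := by
    intro hB
    apply hTR.ns
    have h1 := h.zg
    have h2 : Group.IsSolvable B := inferInstance
    rw [hB] at h2
    exact Group.isSolvable_of_isSolvable_injective (f := (topEquiv (G := G)).symm.toMonoidHom) topEquiv.symm.injective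
  obtain ⟨M, hM, hBM⟩ := (eq_top_or_exists_le_coatom B).resolve_left hB
  set N1 := M.normalCore with hN1def
  have hN1M : N1 ≤ M := normalCore_le M
  have hcore := inf_le_core h hBM
  have hidx := index_eq h hBM
  have hcardA : Nat.card (M.subgroupOf A) * M.relIndex A = Nat.card A := card_mul_index (M.subgroupOf A)
  by_cases hN1 : N1 = ⊥
  · have e : G ⧸ N1 ≃* G := (QuotientGroup.quotientMulEquivOfEq hN1).trans QuotientGroup.quotientBot
    obtain ⟨r, hr, hr2⟩ := action HX h hM hBM (by
      intro hs
      exact hTR.ns (Group.isSolvable_of_isSolvable_injective (f := e.symm.toMonoidHom) e.symm.injective))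
    refine ⟨r, hr.of_equiv e.symm, ?_⟩
    have h1 : M.subgroupOf A = ⊥ := by
      rw [eq_bot_iff]
      intro x hx
      have h2 : (x : G) ∈ N1 := hcore ⟨x.2, hx⟩
      rw [hN1, mem_bot] at h2
      rw [mem_bot]
      exact Subtype.ext h2
    rw [← hcardA, h1, card_bot, one_mul, hidx, hr2]
  · exfalso
    have hMlt : Nat.card M < Nat.card G := by
      have h1 := Nat.card_le_card_of_injective M.subtype M.subtype_injective
      rcases h1.lt_or_eq with h2 | h2
      · exact h2
      · exact absurd (eq_top_of_card_eq M h2) hM.1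
    have hN1ns : ¬ Group.IsSolvable N1 := fun hs => hN1 (hTR.rad N1 inferInstance hs)
    have hMns : ¬ Group.IsSolvable M := fun hs =>
      hN1ns (Group.isSolvable_of_isSolvable_injective (f := inclusion hN1M) (inclusion_injective hN1M))
    set π := QuotientGroup.mk' (H70.SolvRad.srad M) with hπ
    have hπs : Function.Surjective π := QuotientGroup.mk'_surjective _
    have hqlt : Nat.card (M ⧸ H70.SolvRad.srad M) ≤ Nat.card M := Nat.card_le_card_of_surjective π hπs
    obtain ⟨p, hp, hpA⟩ := IH _ (by omega) (M ⧸ H70.SolvRad.srad M) _ _ rfl ((h.sub hBM).map π hπs) (TR_srad hMns)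
    -- `π` is injective on `N1`
    have hinj : ∀ x (hx : x ∈ N1), π ⟨x, hN1M hx⟩ = 1 → x = 1 := by
      intro x hx hx1
      have hx2 : (⟨x, hN1M hx⟩ : M) ∈ H70.SolvRad.srad M := (QuotientGroup.eq_one_iff _).1 hx1
      let K : Subgroup N1 := (H70.SolvRad.srad M).comap (inclusion hN1M)
      have hK : Group.IsSolvable K := by
        have hs := H70.SolvRad.isSolvable_srad (G := M)
        refine Group.isSolvable_of_isSolvable_injective (f := (inclusion hN1M).subgroupComap (H70.SolvRad.srad M)) ?_
        intro a b hab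
        apply Subtype.ext
        apply inclusion_injective hN1M
        exact congrArg Subtype.val hab
      have h1 : K ≤ H70.SolvRad.srad N1 := H70.SolvRad.le_srad inferInstance hK
      have h2 : x ∈ H70.SolvRad.srad G :=
        H70.SolvRad.map_subtype_srad_le N1 ⟨⟨x, hx⟩, h1 hx2, rfl⟩
      rw [hTR.rad _ inferInstance H70.SolvRad.isSolvable_srad, mem_bot] at h2
      exact h2
    -- a minimal normal subgroup
    obtain ⟨L, hLmin⟩ := (Set.toFinite {K : Subgroup G | K.Normal ∧ K ≠ ⊥ ∧ K ≤ N1}).exists_minimal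
      ⟨N1, inferInstance, hN1, le_rfl⟩
    obtain ⟨hLn, hLne, hLN⟩ := hLmin.prop
    have hLp : ⁅L, L⁆ = L := by
      have h1 : ⁅L, L⁆ ≤ L := commutator_le_right L L
      by_cases h2 : ⁅L, L⁆ = ⊥
      · exfalso
        apply hLne
        apply hTR.rad L hLn
        apply Group.isSolvable_of_comm
        intro a b
        apply Subtype.ext
        have h3 : ⁅(a : G), (b : G)⁆ ∈ ⁅L, L⁆ := commutator_mem_commutator a.2 b.2
        rw [h2, mem_bot, commutatorElement_eq_one_iff_mul_comm] at h3
        exact h3
      · exact le_antisymm h1 (hLmin.le_of_le ⟨inferInstance, h2, h1.trans hLN⟩ h1)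
    have hLM : L ≤ M := hLN.trans hN1M
    have hLnt : Nontrivial L := (nontrivial_iff_ne_bot L).2 hLne
    have hPD := pd_of_isP hp
    obtain ⟨S, hSn, hSs, hSc, hSi, hSz, hSa⟩ := hPD.ex
    let g : L →* M ⧸ H70.SolvRad.srad M := π.comp (inclusion hLM)
    have hg : Function.Injective g := by
      rw [injective_iff_map_eq_one]
      intro x hx
      exact Subtype.ext (hinj x (hLN x.2) hx)
    have hgn : g.range.Normal := by
      constructor
      rintro _ ⟨x, rfl⟩ y
      obtain ⟨m, rfl⟩ := hπs y
      exact ⟨⟨m * x * (m : G)⁻¹, hLn.conj_mem x x.2 m⟩, rfl⟩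
    have hgS : g.range = S := range_eq (perfect_top hLp) g hg hgn hSz hSi
    have e1 : L ≃* S := (MonoidHom.ofInjective hg).trans (MulEquiv.subgroupCongr hgS)
    have hLs : IsSimpleGroup L := (MulEquiv.isSimpleGroup_congr e1).2 hSs
    -- commuting with `L` inside `N1`
    have hcN1 : ∀ x ∈ N1, x ∈ centralizer (L : Set G) → x = 1 := by
      intro x hx hxC
      apply hinj x hx
      have h1 : π ⟨x, hN1M hx⟩ ∈ centralizer (S : Set (M ⧸ H70.SolvRad.srad M)) := by
        rw [mem_centralizer_iff]
        intro s hs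
        have hs' : s ∈ g.range := by rw [hgS]; exact hs
        obtain ⟨l, rfl⟩ := hs'
        change π (inclusion hLM l) * _ = _ * π (inclusion hLM l)
        rw [← map_mul, ← map_mul]
        congr 1
        apply Subtype.ext
        exact (mem_centralizer_iff.1 hxC) l l.2
      rwa [hSz, mem_bot] at h1
    have hLC : ∀ x ∈ L, x ∈ centralizer (L : Set G) → x = 1 := fun x hx => hcN1 x (hLN hx)
    set C := centralizer (L : Set G) with hCdef
    have hCn : C.Normal := inferInstance
    by_cases hC : C = ⊥
    · have h1 := card_aut_le hC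
      rw [Nat.card_congr (MulAut.congr e1).toEquiv] at h1
      omega
    · have hCcard : Nat.card (G ⧸ C) < Nat.card G := by
        have h1 : Nat.card G = Nat.card (G ⧸ C) * Nat.card C := card_eq_card_quotient_mul_card_subgroup C
        have h2 : 1 < Nat.card C := by
          rw [Finite.one_lt_card_iff_nontrivial, nontrivial_iff_ne_bot]
          exact hC
        have h3 : 0 < Nat.card (G ⧸ C) := Nat.card_pos
        rw [h1]
        exact lt_mul_of_one_lt_right h3 h2
      have hTRC : TR (G ⧸ C) := TR_quot hLp hLC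
      obtain ⟨p', hp', hpA'⟩ := IH _ (by omega) (G ⧸ C) _ _ rfl
        (h.map (QuotientGroup.mk' C) (QuotientGroup.mk'_surjective C)) hTRC
      have hPD' := pd_of_isP hp'
      obtain ⟨S', hSn', hSs', hSc', hSi', hSz', hSa'⟩ := hPD'.ex
      let g' : L →* G ⧸ C := (QuotientGroup.mk' C).comp L.subtype
      have hg' : Function.Injective g' := by
        rw [injective_iff_map_eq_one]
        intro x hx
        exact Subtype.ext (hLC x x.2 ((QuotientGroup.eq_one_iff (x : G)).1 hx))
      have hgn' : g'.range.Normal := by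
        constructor
        rintro _ ⟨x, rfl⟩ y
        obtain ⟨z, rfl⟩ := QuotientGroup.mk_surjective y
        exact ⟨⟨z * x * z⁻¹, hLn.conj_mem x x.2 z⟩, rfl⟩
      have hgS' : g'.range = S' := range_eq (perfect_top hLp) g' hg' hgn' hSz' hSi'
      have e1' : L ≃* S' := (MonoidHom.ofInjective hg').trans (MulEquiv.subgroupCongr hgS')
      have hpp : p = p' := by
        have h1 : Nat.card S * S.index = Nat.card (M ⧸ H70.SolvRad.srad M) := card_mul_index S
        have h2 : Nat.card S' * S'.index = Nat.card (G ⧸ C) := card_mul_index S'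
        rw [hSi, ← Nat.card_congr e1.toEquiv, hPD.card] at h1
        rw [hSi', ← Nat.card_congr e1'.toEquiv, hPD'.card] at h2
        exact cube_inj hp.2.1 hp'.2.1 (h1.symm.trans h2)
      subst hpp
      -- the action on the cosets of `M`
      have hXns : ¬ Group.IsSolvable (G ⧸ N1) := by
        intro hs
        apply hC
        apply hTR.rad C hCn
        refine Group.isSolvable_of_isSolvable_injective (f := (QuotientGroup.mk' N1).comp C.subtype) ?_
        rw [injective_iff_map_eq_one]
        intro x hx
        exact Subtype.ext (hcN1 x ((QuotientGroup.eq_one_iff (x : G)).1 hx) x.2)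
      obtain ⟨r, hr, hr2⟩ := action HX h hM hBM hXns
      -- orders
      have hAM : Nat.card (M.subgroupOf A) = p + 1 := by
        rw [← hpA]
        let F : M.subgroupOf A → (A.subgroupOf M).map π := fun x => ⟨π ⟨x.1.1, x.2⟩, ⟨⟨x.1.1, x.2⟩, x.1.2, rfl⟩⟩
        refine Nat.card_congr (Equiv.ofBijective F ⟨?_, ?_⟩)
        · intro x y hxy
          have h1 : π ⟨x.1.1, x.2⟩ = π ⟨y.1.1, y.2⟩ := congrArg Subtype.val hxy
          have h2 : π (⟨x.1.1, x.2⟩ * ⟨y.1.1, y.2⟩⁻¹) = 1 := by
            rw [map_mul, map_inv, h1, mul_inv_cancel]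
          have h3 : (x.1.1 * (y.1.1)⁻¹ : G) ∈ N1 := by
            apply hcore
            exact mem_inf.2 ⟨A.mul_mem x.1.2 (A.inv_mem y.1.2), M.mul_mem x.2 (M.inv_mem y.2)⟩
          have h4 := hinj _ h3 h2
          exact Subtype.ext (Subtype.ext (mul_inv_eq_one.1 h4))
        · rintro ⟨_, m, hm, rfl⟩
          exact ⟨⟨⟨m.1, hm⟩, m.2⟩, rfl⟩
      have hcA : Nat.card A = (p + 1) * (r + 1) := by
        rw [← hcardA, hAM, hidx, hr2]
      have hcy := h.cyc
      obtain ⟨a, ha⟩ := IsCyclic.exists_generator (α := A)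
      have hoa : orderOf a = (p + 1) * (r + 1) := by
        rw [← hcA]; exact orderOf_eq_card_of_forall_mem_zpowers ha
      have haC : (a : G) ^ (p + 1) ∈ C := by
        rw [← QuotientGroup.eq_one_iff]
        have h1 : (⟨QuotientGroup.mk' C a, ⟨a, a.2, rfl⟩⟩ : A.map (QuotientGroup.mk' C)) ^ (p + 1) = 1 := by
          rw [← hpA']; exact pow_card_eq_one'
        exact congrArg Subtype.val h1
      have haN : (a : G) ^ (r + 1) ∈ N1 := by
        apply hcore
        refine ⟨pow_mem a.2 _, ?_⟩
        have hnm : (M.subgroupOf A).Normal := by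
          constructor
          intro x hx y
          have h1 : y * x = x * y := (IsCyclic.commGroup (α := A)).mul_comm y x
          rwa [h1, mul_inv_cancel_right]
        have h1 : a ^ (M.subgroupOf A).index ∈ M.subgroupOf A := pow_index_mem _ a
        have h2 : (M.subgroupOf A).index = r + 1 := by
          rw [← hr2, ← hidx]; rfl
        rw [h2] at h1
        exact h1
      obtain ⟨m, hm⟩ : ∃ m, p + 1 = 2 * m := by
        have h1 := hp.1.eq_two_or_odd'
        rcases h1 with h1 | ⟨k, hk⟩
        · have := hp.2.1; omega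
        · exact ⟨k + 1, by omega⟩
      obtain ⟨k, hk⟩ : ∃ k, r + 1 = 2 * k := by
        have h1 := hr.1.eq_two_or_odd'
        rcases h1 with h1 | ⟨k, hk⟩
        · have := hr.2.1; omega
        · exact ⟨k + 1, by omega⟩
      have h1 : (a : G) ^ (2 * m * k) ∈ C := by
        rw [← hm, pow_mul]; exact pow_mem haC _
      have h2 : (a : G) ^ (2 * m * k) ∈ N1 := by
        have e2 : 2 * m * k = (r + 1) * m := by rw [hk]; ring
        rw [e2, pow_mul]; exact pow_mem haN _
      have h3 := hcN1 _ h2 h1
      have h4 : a ^ (2 * m * k) = 1 := Subtype.ext h3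
      have h5 := orderOf_dvd_of_pow_eq_one h4
      rw [hoa, hm, hk] at h5
      have hm0 : 0 < m := by omega
      have hk0 : 0 < k := by omega
      have h6 := Nat.le_of_dvd (by positivity) h5
      nlinarith [Nat.mul_pos hm0 hk0]

end H8.Y1
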